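import Cfsg.Agent.H8.SQ2
import Cfsg.Agent.WA.ZdM
import Cfsg.Agent.WA.ZdU1
import Cfsg.Agent.H7.Pump

/-! A strongly closed 2-subgroup whose local subgroups lie in a proper subgroup. -/

set_option autoImplicit false
set_option linter.unusedSectionVars false
set_option linter.unusedVariables false

namespace Cfsg.Agent.H8.SQ

open Subgroup Cfsg.Agent.FT Cfsg.Agent.L0 Cfsg.Agent.H8 Cfsg.Agent.BS Cfsg.Agent.H3.DD
open scoped commutatorElement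

universe u

local instance : Fact (Nat.Prime 2) := Nat.fact_prime_two

open MulAction Cfsg.Agent.WA.Te Cfsg.Agent.WA.Zd

variable {G Ω : Type u} [Group G] [Finite G] [MulAction G Ω] {𝒮 D : Set G} {a b : Ω} {T S H : Subgroup G} {d g : G}

theorem zd_core (h : ZD Ω 𝒮 D) (hc : ∀ a : Ω, a ∈ Cov Ω D) (hab : a ≠ b)
    (hr : ∃ d ∈ D, ∃ e ∈ D, d ≠ e ∧ d * e = e * d) (hk : ∀ g ∈ closure D, (∀ c : Ω, g • c = c) → g = 1) :
    (∀ s ∈ 𝒮, s • a = a → s ∈ closure D) ∧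
      ((∀ x ∈ closure D, x • a = a → (∃ n, x ^ 2 ^ n = 1) → x ∈ 𝒮) ∨ ∀ s ∈ 𝒮, s • a = a → s * s = 1) := by
  have co := h.co
  have hm : ∀ d ∈ D, ∀ e ∈ D, ∀ a : Ω, d • a = a → e • a = a → d * e = e * d := fun d hd e he a h3 h5 =>
    commutatorElement_eq_one_iff_mul_comm.mp (hk _ (by
      have m := subset_closure (k := D) hd
      have m' := subset_closure (k := D) he
      exact (closure D).mul_mem ((closure D).mul_mem ((closure D).mul_mem m m') ((closure D).inv_mem m))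
        ((closure D).inv_mem m')) (h.td.comm_ker co hc ⟨_, _, hab⟩ hr hd he h3 h5))
  obtain ⟨𝒜, q, cl, rfl⟩ := (h.td.te hm).exists_cl hc hr hm
  have hY : YY 𝒜 Set.univ = closure (DD 𝒜) := le_antisymm
    (by simpa using CL.YY_le_closure (𝒜 := 𝒜) (F := Set.univ) (L := ⊤) fun _ _ => le_top)
    ((closure_le _).2 fun d hd => hd.2.elim fun c hc => (le_iSup₂ (f := fun c (_ : c ∈ Set.univ) => 𝒜 c) c trivial) hc)
  have pk : Pk 𝒜 q Set.univ a b := ⟨cl, ⟨fun _ _ _ _ _ _ => trivial, fun t ht i c _ e _ h3 h5 =>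
    co t (hY ▸ ht) i c (hc c) e (hc e) h3 h5⟩, trivial, trivial, hab⟩
  rw [← hY]
  obtain ⟨Q, mQ, lQ, nQ⟩ := h.exists_S pk.R_two
  have aS : ∀ x ∈ 𝒜 a, x ∈ 𝒮 := fun x hx => by
    by_cases e : x = 1
    · exact e ▸ h.one
    · exact h.mem (CL.mem_DD hx e)
  have aQ : 𝒜 a ≤ Q := fun x hx => (mQ x).2 ⟨aS x hx, pk.A_le hx⟩
  have kQ := pk.K_norm_R.trans nQ
  have hQ : Q = 𝒜 a ∨ Q = RR 𝒜 Set.univ a := by
    rcases pk.cases with e | ⟨e, -⟩ | ⟨e, w, -, h1, h2, h3⟩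
    · exact Or.inr (le_antisymm lQ (e ▸ aQ))
    · rcases pk.a2 aQ lQ kQ with e' | e' | e'
      · exact Or.inl (pk.eq_A aQ e')
      · exact Or.inr (eq_of_le_of_card_ge lQ (by rw [e, e']))
      · have := card_le_of_le lQ
        have := Nat.pow_lt_pow_right (show 1 < q by have := cl.four; omega) (show 2 < 3 by norm_num)
        omega
    · exact (pk.u1 e h1 h2 h3).2.2 Q aQ lQ kQ (nQ (pk.CH_norm h1))
  have key : ∀ s ∈ 𝒮, s • a = a → s ∈ Q := fun s hs ha => by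
    have n1 : s ∈ 𝐍(RR 𝒜 Set.univ a) := cl.norm_RR (mem_NF_of_le fun _ _ => trivial) ha
    have hP : IsPGroup 2 (RR 𝒜 Set.univ a ⊔ zpowers s : Subgroup G) :=
      pk.R_two.to_sup_of_normal_left' (pgroup_zpowers_of_pow (h.two s hs)) (zpowers_le.2 n1)
    have sP : s ∈ RR 𝒜 Set.univ a ⊔ zpowers s := mem_sup_right (mem_zpowers s)
    obtain ⟨ρ, hρ, e⟩ := pk.R_trans (c := s • b) trivial fun e => hab ((smul_left_cancel s (ha.trans e.symm)))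
    have f1 : (ρ⁻¹ * s) • a = a := by rw [mul_smul, ha, pk.R_fix (inv_mem hρ)]
    have f2 : (ρ⁻¹ * s) • b = b := by rw [mul_smul, ← e, inv_smul_smul]
    have fin : ρ⁻¹ ∈ Q → s ∈ Q := fun m => by
      have := h.eq_one (h.mul _ hP _ ((mQ _).1 m).1 s hs (mem_sup_left (inv_mem hρ)) sP) hab f1 f2
      rw [← inv_mul_eq_one.1 this]
      exact inv_mem_iff.1 m
    by_cases e1 : Q = RR 𝒜 Set.univ a
    · exact fin (e1 ▸ inv_mem hρ)
    have e2 := hQ.resolve_right e1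
    have cm : ∀ g : G, g * s * g⁻¹ ∈ RR 𝒜 Set.univ a ⊔ zpowers s → s * (g * s * g⁻¹)⁻¹ ∈ RR 𝒜 Set.univ a →
        s * (g * s * g⁻¹)⁻¹ ∈ 𝒜 a := fun g h1 h2 =>
      e2 ▸ (mQ _).2 ⟨h.mul _ hP s hs _ (h.inv_mem (h.conj s hs g)) sP (inv_mem h1), h2⟩
    have y1 : s ∈ Y0 (𝒜 a) (RR 𝒜 Set.univ a) := ⟨n1, fun x hx => by
      have := cm x (mul_mem (mul_mem (mem_sup_left hx) sP) (inv_mem (mem_sup_left hx)))
        (by simpa [mul_assoc] using mul_mem (H9.conj_mem_of_mem_normalizer n1 hx) (inv_mem hx))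
      simpa [mul_assoc] using this⟩
    have y2 : ρ ∈ Y0 (𝒜 a) (RR 𝒜 Set.univ a) := ⟨le_normalizer hρ, fun x hx => by
      simpa [mul_assoc] using inv_mem (pk.comm_mem (inv_mem hx) hρ)⟩
    have y3 := mul_mem (inv_mem y2) y1
    obtain ⟨k, hk, k1⟩ := pk.exists_K_ne
    have y4 : k * (ρ⁻¹ * s) * k⁻¹ ∈ Y0 (𝒜 a) (RR 𝒜 Set.univ a) :=
      ⟨mul_mem (mul_mem (pk.K_norm_R hk) y3.1) (inv_mem (pk.K_norm_R hk)), fun x hx => by
        have := pk.K_A hk (y3.2 _ (H9.conj_mem_of_mem_normalizer' (pk.K_norm_R hk) hx))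
        convert this using 1
        group⟩
    obtain ⟨x, hx, hx'⟩ := SetLike.exists_of_lt (lt_of_le_of_ne lQ e1)
    have y5 : k * (ρ⁻¹ * s) * k⁻¹ * (ρ⁻¹ * s)⁻¹ = 1 := (pk.K_fpf_quo (x := x)
      (by simpa [mul_assoc] using mul_mem hk (H9.conj_mem_of_mem_normalizer (cl.norm_KK a b (mem_st2.2 ⟨f1, f2⟩)) (inv_mem hk)))
      hx (by simpa [mul_assoc] using inv_mem ((mul_mem y4 (inv_mem y3)).2 _ (inv_mem hx)))).resolve_right (e2 ▸ hx')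
    have y6 : k * s * k⁻¹ = k * ρ * k⁻¹ * (ρ⁻¹ * s) := by rw [← mul_inv_eq_one.1 y5]; group
    have y7 : s * (k * s * k⁻¹)⁻¹ = ρ * (k * ρ⁻¹ * k⁻¹) := by rw [y6]; group
    have y8 := cm k (y6 ▸ mul_mem (mem_sup_left (pk.K_R hk hρ)) (mul_mem (mem_sup_left (inv_mem hρ)) sP))
      (y7 ▸ mul_mem hρ (pk.K_R hk (inv_mem hρ)))
    exact fin (aQ ((pk.K_fpf_quo hk (inv_mem hρ) (by rwa [inv_inv, ← y7])).resolve_left k1))
  refine ⟨fun s hs ha => pk.R_le_Y (lQ (key s hs ha)), hQ.symm.imp (fun e x hx ha h2 => ?_) fun e s hs ha => ?_⟩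
  · exact ((mQ x).1 (e ▸ pk.mem_R hx ha h2)).1
  · exact cl.sq a s (e ▸ key s hs ha)

theorem zd_struct (h : ZD Ω 𝒮 D) (hc : ∀ a : Ω, a ∈ Cov Ω D) (hab : a ≠ b)
    (hr : ∃ d ∈ D, ∃ e ∈ D, d ≠ e ∧ d * e = e * d) (hS : SCl T S) (hD : 𝒮 = cc S) (hT : ∀ t ∈ T, t • a = a) :
    (∀ u ∈ closure D, Invo u → u ∈ D) ∧ S ≤ closure D ∧ (T ⊓ closure D ≤ S ∨ ∀ s ∈ S, s * s = 1) := by
  subst hD
  have inv : ∀ u ∈ closure D, Invo u → u ∈ D := fun u hu i =>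
    h.td.invX (L := ⊤) (by simpa using h.co) (by simpa using hc a) (by simpa using hc b) hab (by simpa using hu) i
  have nX : (closure D).Normal := normalizer_eq_top_iff.1 (eq_top_iff.2 (by simpa using h.td.norm_closure ⊤))
  let W := closure D ⊓ (toPermHom G Ω).ker
  have hk : W ≤ (toPermHom G Ω).ker := inf_le_right
  let _i : MulAction (G ⧸ W) Ω := MulAction.compHom Ω (QuotientGroup.lift _ (toPermHom G Ω) hk)
  have hf := QuotientGroup.mk'_surjective W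
  have h' := h.map (QuotientGroup.mk' W) hf (fun _ _ => rfl) ⟨a, b, hab⟩
  have fx : ∀ x ∈ W, ∀ c : Ω, x • c = c := fun x hx c => Equiv.congr_fun (hk hx) c
  have w1 : ∀ x ∈ W, x ∈ T → x = 1 := fun x hx ht => by
    by_contra h1
    obtain ⟨n, i⟩ := exists_invo_pow_of_two_elt (pow_of_mem hS.syl.pgroup ht) h1
    exact hab (h.td.eq_of_fix (inv _ (pow_mem hx.1 n) i) (fx _ (pow_mem hx n) a) (fx _ (pow_mem hx n) b))
  obtain ⟨h1, h2⟩ := zd_core h' (fun c => (hc c).elim fun d hd => ⟨_, ⟨d, hd.1, rfl⟩, hd.2⟩) hab (by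
      obtain ⟨d, hd, e, he, h1, h2⟩ := hr
      refine ⟨_, ⟨d, hd, rfl⟩, _, ⟨e, he, rfl⟩, fun e' => ?_, by rw [← map_mul, h2, map_mul]⟩
      have := QuotientGroup.eq.1 e'
      rw [(h.td.invo d hd).inv_eq] at this
      exact hab (h.td.eq_of_fix (h.td.mul d hd e he h2 h1) (fx _ this a) (fx _ this b))) (by
      rw [← MonoidHom.map_closure]
      rintro _ ⟨y, hy, rfl⟩ h1
      exact (QuotientGroup.eq_one_iff y).2 ⟨hy, Equiv.ext h1⟩)
  rw [← MonoidHom.map_closure] at h1 h2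
  refine ⟨inv, fun s hs => ?_, h2.imp (fun h2 x hx => ?_) fun h2 s hs => ?_⟩
  · obtain ⟨y, hy, e⟩ := h1 _ ⟨s, mem_cc hs, rfl⟩ (hT s (hS.le hs))
    exact (mul_mem_cancel_left (inv_mem hy)).1 (mem_inf.1 (QuotientGroup.eq.1 e)).1
  · obtain ⟨_, ⟨s, hs, g, rfl⟩, e⟩ := h2 _ ⟨x, hx.2, rfl⟩ (hT x hx.1)
      ((pow_of_mem hS.syl.pgroup hx.1).imp fun n e => by rw [← map_pow, e, map_one])
    obtain ⟨s', hs', e'⟩ := (hS.map hf).mem (x := QuotientGroup.mk' W x) ⟨_, ⟨s, hs, rfl⟩, QuotientGroup.mk' W g, by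
      rw [← e]; simp⟩ ⟨x, hx.1, rfl⟩
    rwa [← inv_mul_eq_one.1 (w1 _ (QuotientGroup.eq.1 e') (T.mul_mem (T.inv_mem (hS.le hs')) hx.1))]
  · exact w1 _ ((QuotientGroup.eq_one_iff _).1 (h2 _ ⟨s, mem_cc hs, rfl⟩ (hT s (hS.le hs)))) (hS.le (mul_mem hs hs))

end Cfsg.Agent.H8.SQ
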